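import Cfsg.Agent.E7P.Br.Pi
import Cfsg.Agent.R2.H28.SL2.Ext

/-!
# S5932, task BR: the leading terms of `U` (helper8)

* `Dm_split`, `Dm_filt` : the operators `D_m` on a filtered module;
* `Sit.br_F`, `br_Ft`, `br_gr` : filtrations in the frame of `g0` (`S.Fg d = S.br_F ac (adM k) d`);
* `Sit.br_E m = π (D_m on V)`, `Sit.br_e j` : the leading terms; `br_opt`; `Sit.j1 : S.J1`, `br_j1D`.
-/

set_option autoImplicit false
set_option maxRecDepth 100000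

namespace Cfsg.Agent.E7P

open Cfsg Cfsg.Lie Matrix Module
open Cfsg.Agent.H943.E7V.Block (D1 rho)
open Cfsg.Agent.R2.T1 Cfsg.Agent.E7P.Kf Cfsg.Agent.E7P.Br
open Cfsg.Agent.R2.PX (del)
open Cfsg.Agent.H943.SL2Rel (u w h)
open Cfsg.Agent.R2.H28.SL2 (Dm)
open Cfsg.Agent.ChevalleyStructure.RootVec (rt)

universe u v

namespace Br

/-! ### the operators `D_m` -/

theorem dg_top_sub {p m j : ℕ} (hp : 1 < p) (h1 : p ^ j ≤ m) (h2 : m < p ^ (j + 1)) (i : ℕ) :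
    m / p ^ i % p = (m - p ^ j) / p ^ i % p + if i = j then 1 else 0 := by
  obtain ⟨n, rfl⟩ := Nat.exists_eq_add_of_le h1
  rw [Nat.add_sub_cancel_left]
  have hp0 : 0 < p := by omega
  rcases lt_trichotomy i j with h | rfl | h
  · obtain ⟨d, rfl⟩ := Nat.exists_eq_add_of_lt h
    rw [if_neg h.ne, add_zero, show p ^ (i + d + 1) + n = n + p ^ d * p * p ^ i by ring,
      Nat.add_mul_div_right _ _ (Nat.pow_pos hp0), Nat.add_mul_mod_self_right]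
  · have h3 : (p ^ i + n) / p ^ i < p := Nat.div_lt_of_lt_mul (by rwa [pow_succ] at h2)
    rw [if_pos rfl, Nat.mod_eq_of_lt h3]
    rw [Nat.add_div_left _ (Nat.pow_pos hp0)] at h3 ⊢
    rw [Nat.mod_eq_of_lt (by omega)]
  · have h3 : p ^ (j + 1) ≤ p ^ i := Nat.pow_le_pow_right hp0 h
    rw [if_neg h.ne', Nat.div_eq_of_lt (by omega), Nat.div_eq_of_lt (by omega), add_zero]

section
variable {k : Type*} [Field k] {F : Type*} [Field F] [Fintype F] (ι : F →+* k) {V : Type*} [AddCommGroup V] [Module k V]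
  (ρ : Representation k (SpecialLinearGroup (Fin 2) F) V) (p : ℕ) [Fact p.Prime] [CharP k p] [CharP F p] {a : ℕ}

theorem Dm_split (hF : Fintype.card F = p ^ a) {m : ℕ} (h1 : 1 ≤ m) (h2 : m ≤ Fintype.card F - 1) :
    ∃ j < a, m = p ^ j ∨ ∃ n, 1 ≤ n ∧ n < m ∧ (∀ i, m / p ^ i % p = n / p ^ i % p + if i = j then 1 else 0) ∧
      ∃ c : k, ∀ x, Dm ι ρ m x = c • Dm ι ρ (p ^ j) (Dm ι ρ n x) := by
  classical
  have hp : 1 < p := (Fact.out : p.Prime).one_lt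
  have h3 : p ^ Nat.log p m ≤ m := Nat.pow_log_le_self p (by omega)
  have h4 : m < p ^ (Nat.log p m + 1) := Nat.lt_pow_succ_log_self hp m
  have h5 : 0 < p ^ Nat.log p m := Nat.pow_pos (by omega)
  have h6 : 0 < p ^ a := Nat.pow_pos (by omega)
  refine ⟨Nat.log p m, (Nat.pow_lt_pow_iff_right hp).1 (by omega), ?_⟩
  rcases h3.eq_or_lt with h7 | h7
  · exact Or.inl h7.symm
  refine Or.inr ⟨m - p ^ Nat.log p m, by omega, by omega, dg_top_sub hp h3 h4, (m.choose (p ^ Nat.log p m) : k)⁻¹, fun x => ?_⟩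
  have h8 : (m.choose (p ^ Nat.log p m) : k) ≠ 0 := (R2.H28.SL2.choose_ne_iff p).2 fun i => by
    have h9 := R2.H28.SL2.dg_single hp hp (c := 1) (Nat.log p m) i
    rw [one_mul] at h9
    rw [h9, dg_top_sub hp h3 h4 i]
    omega
  rw [R2.H28.SL2.Dm_mul' ι ρ p hF h5 (by omega) (by omega), Nat.add_sub_cancel' h3, inv_smul_smul₀ h8]

/-- `D_m` raises a filtration by the weighted digit sum -/
theorem Dm_filt (hF : Fintype.card F = p ^ a) (Fl : ℝ → Submodule k V) (wt : ℕ → ℝ)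
    (h : ∀ j < a, ∀ d, ∀ x ∈ Fl d, Dm ι ρ (p ^ j) x ∈ Fl (d + wt j)) {m : ℕ} (h1 : 1 ≤ m) (h2 : m ≤ Fintype.card F - 1)
    {d : ℝ} {x : V} (hx : x ∈ Fl d) : Dm ι ρ m x ∈ Fl (d + ∑ j ∈ Finset.range a, (m / p ^ j % p : ℕ) * wt j) := by
  have hp : 1 < p := (Fact.out : p.Prime).one_lt
  induction m using Nat.strong_induction_on with
  | _ m ih =>
    obtain ⟨j, hj, rfl | ⟨n, h3, h4, h5, c, h6⟩⟩ := Dm_split ι ρ p hF h1 h2
    · have h3 : ∀ i, p ^ j / p ^ i % p = if i = j then 1 else 0 := fun i => by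
        have h9 := R2.H28.SL2.dg_single hp hp (c := 1) j i
        rwa [one_mul] at h9
      rw [Finset.sum_eq_single j, h3, if_pos rfl, Nat.cast_one, one_mul]
      · exact h j hj d x hx
      · intro i _ hi
        rw [h3, if_neg hi, Nat.cast_zero, zero_mul]
      · intro hj'
        exact absurd (Finset.mem_range.2 hj) hj'
    · have h7 : ∑ i ∈ Finset.range a, ((m / p ^ i % p : ℕ) : ℝ) * wt i =
          ∑ i ∈ Finset.range a, ((n / p ^ i % p : ℕ) : ℝ) * wt i + wt j := by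
        have h8 : ∀ i ∈ Finset.range a, ((m / p ^ i % p : ℕ) : ℝ) * wt i =
            ((n / p ^ i % p : ℕ) : ℝ) * wt i + if i = j then wt i else 0 := fun i _ => by
          rw [h5 i]
          split_ifs
          · rw [Nat.cast_add, Nat.cast_one, add_mul, one_mul]
          · rw [add_zero, add_zero]
        rw [Finset.sum_congr rfl h8, Finset.sum_add_distrib, Finset.sum_ite_eq', if_pos (Finset.mem_range.2 hj)]
      rw [h6, h7, ← add_assoc]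
      exact Submodule.smul_mem _ _ (h j hj _ _ (ih n h4 h3 (by omega)))

theorem Dm_sub {m : ℕ} (h1 : 1 ≤ m) (x : V) :
    Dm ι ρ m x = -∑ t : F, ι t ^ (Fintype.card F - 1 - m) • (ρ (u t) x - x) := by
  classical
  have hq := R2.H28.SL2.one_lt (F := F)
  have h2 : ∑ t : F, ι t ^ (Fintype.card F - 1 - m) • x = 0 := by
    rw [← Finset.sum_smul, R2.H28.SL2.psum ι (by omega), if_neg (by omega), zero_smul]
  simp only [smul_sub, Finset.sum_sub_distrib]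
  rw [h2, sub_zero, R2.H28.SL2.Dm_apply]

omit [Field F] [CharP F p] in
theorem sum_pow {W : Type*} [AddCommMonoid W] (hF : Fintype.card F = p ^ a) (f : ℕ → W)
    (hf : ∀ m, 1 ≤ m → m ≤ Fintype.card F - 1 → (∀ j < a, m ≠ p ^ j) → f m = 0) :
    ∑ m ∈ Finset.Icc 1 (Fintype.card F - 1), f m = ∑ j ∈ Finset.range a, f (p ^ j) := by
  have hp : 1 < p := (Fact.out : p.Prime).one_lt
  refine (Finset.sum_of_injOn (fun j => p ^ j) (fun i _ j _ e => Nat.pow_right_injective hp e) (fun j hj => ?_)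
    (fun m hm hm' => ?_) fun _ _ => rfl).symm
  · have h1 : p ^ j < p ^ a := Nat.pow_lt_pow_right hp (Finset.mem_range.1 hj)
    have h2 : 0 < p ^ j := Nat.pow_pos (by omega)
    exact Finset.mem_Icc.2 ⟨h2, show p ^ j ≤ _ by omega⟩
  · exact hf m (Finset.mem_Icc.1 hm).1 (Finset.mem_Icc.1 hm).2 fun j hj e =>
      hm' ⟨j, Finset.mem_coe.2 (Finset.mem_range.2 hj), e.symm⟩

end

end Br

namespace Sit

variable {p a b : ℕ} {F : Type u} {K : Type v} {k : Type u} [Field F] [Fintype F] [Field K] [Fintype K] [Field k]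
  (S : Sit p a b F K k)

include S in
theorem br_inf : Infinite k := by
  have := S.closed
  infer_instance

include S in
theorem br_h12 (h5 : 5 ≤ p) : (12 : k) ≠ 0 := by
  have := S.chark
  exact twelve_ne S.prime h5

include S in
/-- **EPS** -/
theorem eps (h5 : 5 ≤ p) : EPS k := Br.eps (S.br_h12 h5)

include S in
theorem br_pow {j : ℕ} (hj : j < a) : 1 ≤ p ^ j ∧ p ^ j ≤ Fintype.card K - 1 := by
  have h1 : p ^ j < p ^ a := Nat.pow_lt_pow_right S.prime.one_lt hj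
  have h2 := S.cardK
  exact ⟨Nat.pow_pos S.prime.pos, by omega⟩

theorem br_RL (x : SpecialLinearGroup (Fin 2) K) (y : chevE7.Idx → k) : S.RL x y = adM k (S.ψ x) *ᵥ y := L_mulVec _ _

theorem br_R (x : SpecialLinearGroup (Fin 2) K) (y : D1 → k) : S.R x y = rho k (S.ψ x) *ᵥ y := rfl

/-! ### filtrations -/

section
variable {I : Type} [Fintype I] [DecidableEq I] (c : I → Fin 7 → ℤ) (R : Gh k →* Matrix I I k)

/-- level `≥ d` -/
noncomputable def br_F (d : ℝ) : Submodule k (I → k) := (Ge k c S.β d).comap (toLin' (R S.g0⁻¹))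

/-- level `> d` -/
noncomputable def br_Ft (d : ℝ) : Submodule k (I → k) := (Gt k c S.β d).comap (toLin' (R S.g0⁻¹))

/-- the component of level `d`, in the frame of `g0` -/
noncomputable def br_gr (d : ℝ) : (I → k) →ₗ[k] (I → k) := lv c S.β d ∘ₗ toLin' (R S.g0⁻¹)

variable {c R} {d d' : ℝ} {x y : I → k}

theorem br_mem_F : x ∈ S.br_F c R d ↔ R S.g0⁻¹ *ᵥ x ∈ Ge k c S.β d := Iff.rfl

theorem br_mem_Ft : x ∈ S.br_Ft c R d ↔ R S.g0⁻¹ *ᵥ x ∈ Gt k c S.β d := Iff.rfl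

theorem br_gr_apply (d : ℝ) (x : I → k) : S.br_gr c R d x = lv c S.β d (R S.g0⁻¹ *ᵥ x) := rfl

theorem br_gr_mem (d : ℝ) (x : I → k) : S.br_gr c R d x ∈ Lv k c S.β d := lv_mem _

theorem br_Ft_le_F : S.br_Ft c R d ≤ S.br_F c R d := fun _ hx => Gt_le_Ge hx

theorem br_F_mono (h : d ≤ d') : S.br_F c R d' ≤ S.br_F c R d := fun _ hx => Ge_mono h hx

theorem br_Ft_mono (h : d ≤ d') : S.br_Ft c R d' ≤ S.br_Ft c R d := fun _ hx => Gt_mono h hx

theorem br_F_le_Ft (h : d < d') : S.br_F c R d' ≤ S.br_Ft c R d := fun _ hx => Ge_le_Gt h hx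

theorem br_gr_of_Ft (hx : x ∈ S.br_Ft c R d) : S.br_gr c R d x = 0 := lv_of_Gt hx

theorem br_Ft_of_gr (hx : x ∈ S.br_F c R d) (h : S.br_gr c R d x = 0) : x ∈ S.br_Ft c R d := mem_Gt_of_lv hx h

theorem br_gr_eq (h : x - y ∈ S.br_Ft c R d) : S.br_gr c R d x = S.br_gr c R d y := by
  rw [← sub_eq_zero, ← map_sub, S.br_gr_of_Ft h]

theorem br_F_of_step (h : ∀ e < d, x ∈ S.br_F c R e → x ∈ S.br_Ft c R e) : x ∈ S.br_F c R d := mem_Ge_of_step h

theorem br_zero_of_step (h : ∀ e, x ∈ S.br_F c R e → x ∈ S.br_Ft c R e) : x = 0 := by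
  rw [← mulVec_inv' R S.g0 x, show R S.g0⁻¹ *ᵥ x = 0 from eq_zero_of_step h, mulVec_zero]

theorem br_F_stab (hR : WRep c R) {g : Gh k} (hg : g ∈ S.P) (hx : x ∈ S.br_F c R d) : R g *ᵥ x ∈ S.br_F c R d := by
  have h1 := hR.Ge_stab (S.mem_P.1 hg) hx
  rwa [toLin'_apply, ← mulVec_mul, mul_inv_cancel_right, mulVec_mul] at h1

theorem br_Ft_stab (hR : WRep c R) {g : Gh k} (hg : g ∈ S.P) (hx : x ∈ S.br_Ft c R d) : R g *ᵥ x ∈ S.br_Ft c R d := by
  have h1 := hR.Gt_stab (S.mem_P.1 hg) hx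
  rwa [toLin'_apply, ← mulVec_mul, mul_inv_cancel_right, mulVec_mul] at h1

/-- an operator which raises the levels by more than `d` raises them by a fixed `d' > d` -/
theorem br_gap (c : I → Fin 7 → ℤ) (R : Gh k →* Matrix I I k) (d : ℝ) : ∃ d', d < d' ∧ ∀ T : (I → k) →ₗ[k] (I → k),
    (∀ e, ∀ x ∈ S.br_F c R e, T x ∈ S.br_Ft c R (e + d)) → ∀ e, ∀ x ∈ S.br_F c R e, T x ∈ S.br_F c R (e + d') := by
  obtain ⟨d', h1, h2⟩ := exists_gapM (K := k) c S.β d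
  refine ⟨d', h1, fun T hT e x hx => ?_⟩
  have h3 : ∀ y, (R S.g0⁻¹ * LinearMap.toMatrix' T * R S.g0) *ᵥ y = R S.g0⁻¹ *ᵥ T (R S.g0 *ᵥ y) := fun y => by
    rw [← mulVec_mulVec, ← mulVec_mulVec, LinearMap.toMatrix'_mulVec]
  have h4 := MGe_mulVec (h2 (MGt_of_mulVec (X := R S.g0⁻¹ * LinearMap.toMatrix' T * R S.g0) fun e y hy => by
    rw [h3]
    exact hT e _ (by rw [br_mem_F, mulVec_inv]; exact Lv_le_Ge hy))) hx
  rwa [h3, toLin'_apply, mulVec_inv'] at h4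

end

theorem br_Fg (d : ℝ) : S.Fg d = S.br_F ac (adM k) d := rfl

theorem br_FV (d : ℝ) : S.FV d = S.br_F wc (rho k) d := rfl

/-- level `> d` in the Lie algebra -/
noncomputable abbrev Fgt (d : ℝ) : Submodule k (chevE7.Idx → k) := S.br_Ft ac (adM k) d

/-- level `> d` in the 56-dimensional module -/
noncomputable abbrev FVt (d : ℝ) : Submodule k (D1 → k) := S.br_Ft wc (rho k) d

/-- the component of level `d` in the Lie algebra -/
noncomputable abbrev grg (d : ℝ) : (chevE7.Idx → k) →ₗ[k] (chevE7.Idx → k) := S.br_gr ac (adM k) d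

/-- the component of level `d` in the 56-dimensional module -/
noncomputable abbrev grV (d : ℝ) : (D1 → k) →ₗ[k] (D1 → k) := S.br_gr wc (rho k) d

section
variable {d d' : ℝ} {x y : chevE7.Idx → k} {v : D1 → k}

theorem br_br_F (h2 : (2 : k) ≠ 0) (hx : x ∈ S.Fg d) (hy : y ∈ S.Fg d') : br k x y ∈ S.Fg (d + d') := by
  rw [br_Fg, br_mem_F, adM_br h2]
  exact br_Ge hx hy

theorem br_br_Ft (h2 : (2 : k) ≠ 0) (hx : x ∈ S.Fgt d) (hy : y ∈ S.Fg d') : br k x y ∈ S.Fgt (d + d') := by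
  rw [br_mem_Ft, adM_br h2]
  exact br_Gt hx hy

theorem br_br_Ft' (h2 : (2 : k) ≠ 0) (hx : x ∈ S.Fg d) (hy : y ∈ S.Fgt d') : br k x y ∈ S.Fgt (d + d') := by
  rw [br_mem_Ft, adM_br h2]
  exact br_Gt' hx hy

theorem br_grg_br (h2 : (2 : k) ≠ 0) (hx : x ∈ S.Fg d) (hy : y ∈ S.Fg d') :
    S.grg (d + d') (br k x y) = br k (S.grg d x) (S.grg d' y) := by
  rw [br_gr_apply, adM_br h2]
  exact lv_br hx hy

theorem br_del_conj (h2 : (2 : k) ≠ 0) (g : Gh k) (x : chevE7.Idx → k) (v : D1 → k) :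
    rho k g *ᵥ (del k x *ᵥ v) = del k (adM k g *ᵥ x) *ᵥ (rho k g *ᵥ v) := by
  rw [mulVec_mulVec, mulVec_mulVec, R2.PX.del_equi h2]

theorem br_del_F (h2 : (2 : k) ≠ 0) (hx : x ∈ S.Fg d) (hv : v ∈ S.FV d') : del k x *ᵥ v ∈ S.FV (d' + d) := by
  rw [br_FV, br_mem_F, br_del_conj h2]
  exact MGe_mulVec (del_MGe.2 hx) hv

theorem br_del_Ft (h2 : (2 : k) ≠ 0) (hx : x ∈ S.Fgt d) (hv : v ∈ S.FV d') : del k x *ᵥ v ∈ S.FVt (d' + d) := by
  rw [br_mem_Ft, br_del_conj h2]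
  exact MGt_mulVec (del_MGt.2 hx) hv

theorem br_del_Ft' (h2 : (2 : k) ≠ 0) (hx : x ∈ S.Fg d) (hv : v ∈ S.FVt d') : del k x *ᵥ v ∈ S.FVt (d' + d) := by
  rw [br_mem_Ft, br_del_conj h2]
  exact mulVec_Gt (del_MGe.2 hx) hv

end

/-! ### the elements of `U` -/

/-- `u t` in the frame of `g0` -/
noncomputable def br_u (t : K) : Gh k := S.g0⁻¹ * S.ψ (u t) * S.g0

theorem br_u_mem (t : K) : S.br_u t ∈ Ul k S.β := S.mem_Ru.1 (S.U_le_Ru ⟨t, rfl⟩)

theorem br_u_MGe (t : K) : rho k (S.br_u t) - 1 ∈ MGe k wc S.β S.nn := S.u_level t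

theorem br_u_mulVec {I : Type} [Fintype I] [DecidableEq I] (R : Gh k →* Matrix I I k) (t : K) (x : I → k) :
    R (S.br_u t) *ᵥ (R S.g0⁻¹ *ᵥ x) = R S.g0⁻¹ *ᵥ (R (S.ψ (u t)) *ᵥ x) := by
  rw [← mulVec_mul, ← mulVec_mul, br_u, mul_inv_cancel_right]

/-- `U` raises the levels of `V` by `nn` (all `p`) -/
theorem br_u_V (t : K) {d : ℝ} {v : D1 → k} (hv : v ∈ S.FV d) : rho k (S.ψ (u t)) *ᵥ v - v ∈ S.FV (d + S.nn) := by
  have h1 := MGe_mulVec (S.br_u_MGe t) hv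
  rwa [toLin'_apply, sub_mulVec, one_mulVec, br_u_mulVec, ← mulVec_sub] at h1

/-- `D_m` on `V`, as a matrix -/
noncomputable def br_DV (m : ℕ) : Matrix D1 D1 k := -∑ t : K, S.ι t ^ (Fintype.card K - 1 - m) • rho k (S.ψ (u t))

theorem br_DV_mulVec (m : ℕ) (v : D1 → k) : S.br_DV m *ᵥ v = Dm S.ι S.R m v := by
  classical
  rw [R2.H28.SL2.Dm_apply, br_DV, neg_mulVec, sum_mulVec]
  exact congrArg _ (Finset.sum_congr rfl fun t _ => smul_mulVec _ _ _)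

theorem br_D_V {m : ℕ} (h1 : 1 ≤ m) {d : ℝ} {v : D1 → k} (hv : v ∈ S.FV d) : Dm S.ι S.R m v ∈ S.FV (d + S.nn) := by
  rw [Dm_sub S.ι S.R h1]
  exact neg_mem (sum_mem fun t _ => Submodule.smul_mem _ _ (S.br_u_V t hv))

/-- the digit sum (all `p`) -/
theorem br_D_V_sum {m : ℕ} (h1 : 1 ≤ m) (h2 : m ≤ Fintype.card K - 1) {d : ℝ} {v : D1 → k} (hv : v ∈ S.FV d) :
    Dm S.ι S.R m v ∈ S.FV (d + ∑ j ∈ Finset.range a, (m / p ^ j % p : ℕ) * S.nn) := by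
  have := S.chark
  have := S.charK
  have : Fact p.Prime := ⟨S.prime⟩
  exact Dm_filt S.ι S.R p S.cardK S.FV (fun _ => S.nn) (fun j hj d x hx => S.br_D_V (S.br_pow hj).1 hx) h1 h2 hv

theorem br_D_V_two {m : ℕ} (h1 : 1 ≤ m) (h2 : m ≤ Fintype.card K - 1) (h3 : ∀ j < a, m ≠ p ^ j) {d : ℝ} {v : D1 → k}
    (hv : v ∈ S.FV d) : Dm S.ι S.R m v ∈ S.FV (d + 2 * S.nn) := by
  have := S.chark
  have := S.charK
  have : Fact p.Prime := ⟨S.prime⟩
  obtain ⟨j, hj, h4 | ⟨n, h4, -, -, c, h5⟩⟩ := Dm_split S.ι S.R p S.cardK h1 h2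
  · exact absurd h4 (h3 j hj)
  · rw [h5, two_mul, ← add_assoc]
    exact Submodule.smul_mem _ _ (S.br_D_V (S.br_pow hj).1 (S.br_D_V h4 hv))

theorem br_rho_u (t : K) : rho k (S.ψ (u t)) = 1 + ∑ m ∈ Finset.Icc 1 (Fintype.card K - 1), S.ι t ^ m • S.br_DV m := by
  classical
  have := S.chark
  have := S.charK
  have : Fact p.Prime := ⟨S.prime⟩
  refine toLin'.injective (LinearMap.ext fun v => ?_)
  rw [toLin'_apply, toLin'_apply, ← br_R, R2.H28.SL2.u_eq S.ι S.R p, add_mulVec, one_mulVec, sum_mulVec]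
  exact congrArg _ (Finset.sum_congr rfl fun m _ => by rw [smul_mulVec, br_DV_mulVec])

theorem br_MGe_of {X : Matrix D1 D1 k} {d : ℝ} (h : ∀ e, ∀ v ∈ S.FV e, X *ᵥ v ∈ S.FV (e + d)) :
    rho k S.g0⁻¹ * X * rho k S.g0⁻¹⁻¹ ∈ MGe k wc S.β d := MGe_of_mulVec fun e v hv => by
  rw [inv_inv, ← mulVec_mulVec, ← mulVec_mulVec]
  exact h e _ (by rw [br_FV, br_mem_F, mulVec_inv]; exact Lv_le_Ge hv)

/-- the projection of `u t` -/
noncomputable def br_z (t : K) : chevE7.Idx → k := pi k (rho k (S.ψ (u t)))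

/-- the projection of `D_m` -/
noncomputable def br_E (m : ℕ) : chevE7.Idx → k := pi k (S.br_DV m)

/-- the leading term of `u t` -/
noncomputable def br_et (t : K) : chevE7.Idx → k := S.grg S.nn (S.br_z t)

/-- the leading term of `D_{p ^ j}` -/
noncomputable def br_e (j : ℕ) : chevE7.Idx → k := S.grg S.nn (S.br_E (p ^ j))

theorem br_e_mem (j : ℕ) : S.br_e j ∈ Lv k ac S.β S.nn := lv_mem _

theorem br_et_mem (t : K) : S.br_et t ∈ Lv k ac S.β S.nn := lv_mem _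

theorem br_E_eq (m : ℕ) : S.br_E m = -∑ t : K, S.ι t ^ (Fintype.card K - 1 - m) • S.br_z t := by
  rw [br_E, br_DV, map_neg, map_sum]
  exact congrArg _ (Finset.sum_congr rfl fun t _ => map_smul _ _ _)

section
variable (h5 : 5 ≤ p)
include h5

theorem br_pi_F {X : Matrix D1 D1 k} {d : ℝ} (h : ∀ e, ∀ v ∈ S.FV e, X *ᵥ v ∈ S.FV (e + d)) : pi k X ∈ S.Fg d := by
  rw [br_Fg, br_mem_F, ← pi_conj (S.br_h12 h5)]
  exact pi_Ge (S.br_h12 h5) (S.br_MGe_of h)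

theorem br_z_eq (t : K) : S.br_z t = ∑ m ∈ Finset.Icc 1 (Fintype.card K - 1), S.ι t ^ m • S.br_E m := by
  rw [br_z, br_rho_u, map_add, pi_one (S.br_h12 h5), zero_add, map_sum]
  exact Finset.sum_congr rfl fun m _ => map_smul _ _ _

theorem br_z_conj (t : K) : adM k S.g0⁻¹ *ᵥ S.br_z t = pi k (rho k (S.br_u t)) := by
  rw [br_z, ← pi_conj (S.br_h12 h5), ← map_mul, ← map_mul, inv_inv, br_u]

theorem br_z_mem (t : K) : S.br_z t ∈ S.Fg S.nn := by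
  rw [br_Fg, br_mem_F, S.br_z_conj h5, ← pi_sub_one (S.br_h12 h5)]
  exact pi_Ge (S.br_h12 h5) (S.br_u_MGe t)

theorem br_E_mem (m : ℕ) : S.br_E m ∈ S.Fg S.nn := by
  rw [br_E_eq]
  exact neg_mem (sum_mem fun t _ => Submodule.smul_mem _ _ (S.br_z_mem h5 t))

theorem br_E_sum {m : ℕ} (h1 : 1 ≤ m) (h2 : m ≤ Fintype.card K - 1) :
    S.br_E m ∈ S.Fg (∑ j ∈ Finset.range a, (m / p ^ j % p : ℕ) * S.nn) :=
  S.br_pi_F h5 fun e v hv => by
    rw [br_DV_mulVec]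
    exact S.br_D_V_sum h1 h2 hv

theorem br_E_two {m : ℕ} (h1 : 1 ≤ m) (h2 : m ≤ Fintype.card K - 1) (h3 : ∀ j < a, m ≠ p ^ j) :
    S.br_E m ∈ S.Fg (2 * S.nn) :=
  S.br_pi_F h5 fun e v hv => by
    rw [br_DV_mulVec]
    exact S.br_D_V_two h1 h2 h3 hv

/-- `E_m` is fixed by `U` -/
theorem br_E_fix (m : ℕ) (t : K) : adM k (S.ψ (u t)) *ᵥ S.br_E m = S.br_E m := by
  rw [br_E_eq, mulVec_neg, mulVec_sum]
  refine congrArg _ (Finset.sum_congr rfl fun s _ => ?_)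
  rw [mulVec_smul, br_z, ← pi_conj (S.br_h12 h5), ← map_mul, ← map_mul, ← map_inv, ← map_mul, ← map_mul,
    ← H943.SL2Rel.u_neg, ← H943.SL2Rel.u_add, ← H943.SL2Rel.u_add, add_neg_cancel_comm]

/-- `E_m` has weight `2 m` -/
theorem br_E_wt {m : ℕ} (hm : m ≤ Fintype.card K - 1) (c : Kˣ) :
    adM k (S.ψ (h c)) *ᵥ S.br_E m = (S.ι c ^ m) ^ 2 • S.br_E m := by
  classical
  rw [br_E, ← pi_conj (S.br_h12 h5), ← map_smul]
  refine congrArg _ (toLin'.injective (LinearMap.ext fun v => ?_))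
  rw [toLin'_apply, toLin'_apply, ← mulVec_mulVec, ← mulVec_mulVec, br_DV_mulVec, ← br_R, R2.H28.SL2.h_Dm S.ι S.R hm,
    br_R, mulVec_inv', smul_mulVec, br_DV_mulVec, ← pow_mul, mul_comm]

/-- the leading term of `u t` is additive in `t` -/
theorem br_et_eq (t : K) : S.br_et t = ∑ j ∈ Finset.range a, S.ι t ^ p ^ j • S.br_e j := by
  have := S.chark
  have := S.charK
  have : Fact p.Prime := ⟨S.prime⟩
  rw [br_et, S.br_z_eq h5, map_sum, sum_pow p S.cardK]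
  · exact Finset.sum_congr rfl fun j _ => map_smul _ _ _
  · intro m h1 h2 h3
    have h4 := S.nn_pos
    rw [map_smul, S.br_gr_of_Ft (S.br_F_le_Ft (by linarith) (S.br_E_two h5 h1 h2 h3)), smul_zero]

omit h5 in
theorem br_e_eq (j : ℕ) : S.br_e j = -∑ t : K, S.ι t ^ (Fintype.card K - 1 - p ^ j) • S.br_et t := by
  rw [br_e, br_E_eq, map_neg, map_sum]
  exact congrArg _ (Finset.sum_congr rfl fun t _ => map_smul _ _ _)

theorem br_u_lead (t : K) : rho k (S.br_u t) - 1 - del k (adM k S.g0⁻¹ *ᵥ S.br_z t) ∈ MGt k wc S.β S.nn := by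
  rw [S.br_z_conj h5]
  exact leadU (S.br_h12 h5) S.nn_pos (S.br_u_mem t).1 (S.br_u_MGe t)

theorem br_u_lead' (t : K) : rho k (S.br_u t) - 1 - del k (S.br_et t) ∈ MGt k wc S.β S.nn := by
  have h1 := add_mem (S.br_u_lead h5 t) (del_MGt.2 (sub_lv_mem (S.br_z_mem h5 t)))
  rwa [map_sub, toLin'_apply, sub_add_sub_cancel] at h1

/-- the leading terms have the optimal pair `(1, β)` -/
theorem br_opt : Opt bf (St ac (adM k) (Set.range S.br_et)) 1 S.β := by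
  have := S.br_inf
  have h1 := lead wrep_V.endo S.β_opt S.β_dom
  have h2 : ∀ t, lv ec S.β (bf S.β S.β) (eR k S.g0⁻¹ *ᵥ Kf.vec (rho k (S.ψ (u t)) - 1)) = Kf.vec (del k (S.br_et t)) := by
    intro t
    rw [eR_vec, inv_inv, ← lv_of_Lv (vec_del_Lv (S.br_et_mem t))]
    exact lv_eq_of_sub (vec_Gt.2 (S.br_u_lead' h5 t))
  have h3 : (fun v => lv ec S.β (bf S.β S.β) (eR k S.g0⁻¹ *ᵥ v)) '' S.XU =
      (fun z => Kf.vec (del k z)) '' Set.range S.br_et := by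
    ext v
    constructor
    · rintro ⟨_, ⟨t, rfl⟩, rfl⟩
      exact ⟨_, ⟨t, rfl⟩, (h2 t).symm⟩
    · rintro ⟨_, ⟨t, rfl⟩, rfl⟩
      exact ⟨_, ⟨t, rfl⟩, h2 t⟩
  rw [← St_del (two_ne (S.br_h12 h5)), ← h3]
  exact h1

theorem br_opt_e : Opt bf (St ac (adM k) {z | ∃ j < a, z = S.br_e j}) 1 S.β := by
  rw [← St_eq_of_span (X := Set.range S.br_et)]
  · exact S.br_opt h5
  · rintro _ ⟨t, rfl⟩
    rw [S.br_et_eq h5]
    exact sum_mem fun j hj => Submodule.smul_mem _ _ (Submodule.subset_span ⟨j, Finset.mem_range.1 hj, rfl⟩)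
  · rintro _ ⟨j, -, rfl⟩
    rw [S.br_e_eq]
    exact neg_mem (sum_mem fun t _ => Submodule.smul_mem _ _ (Submodule.subset_span ⟨t, rfl⟩))

/-- `I0` is not empty -/
theorem br_exists_e : ∃ j < a, S.br_e j ≠ 0 := by
  obtain ⟨_, ⟨j, hj, rfl⟩, h⟩ := exists_ne_of_opt (S.br_opt_e h5)
  exact ⟨j, hj, h⟩

/-- the centraliser of the leading terms has no negative levels -/
theorem br_cent {y : chevE7.Idx → k} (hy : y ∈ Gt k ac (-S.β) 0) (h : ∀ j < a, S.br_e j ≠ 0 → br k (S.br_e j) y = 0) :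
    y = 0 := by
  have := S.br_inf
  refine j1_gen (S.eps h5) (S.br_opt_e h5) S.β_dom hy ?_
  rintro _ ⟨j, hj, rfl⟩
  rw [← br_eq_zero]
  by_cases h0 : S.br_e j = 0
  · rw [h0, map_zero]
  · rw [br_anti, h j hj h0, neg_zero]

theorem br_cent_Lv {y : chevE7.Idx → k} {d : ℝ} (hd : d < 0) (hy : y ∈ Lv k ac S.β d)
    (h : ∀ j < a, S.br_e j ≠ 0 → br k (S.br_e j) y = 0) : y = 0 :=
  S.br_cent h5 (Ge_le_Gt (neg_pos.2 hd) (Lv_le_Ge (mem_Lv_neg.2 hy))) h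

theorem br_label (i : Fin 7) : S.β i ≤ S.nn := label_le (S.br_opt h5) S.β_dom i

/-- the highest level -/
theorem br_top : bf S.β (rv 125) ≤ 17 * S.nn := by
  have h1 : ∀ i : Fin 7, 0 ≤ rt chevE7 125 i := by decide +kernel
  have h2 : ∑ i : Fin 7, rt chevE7 125 i = 17 := by decide +kernel
  rw [bf_rv _ (by norm_num)]
  calc _ ≤ ∑ i : Fin 7, S.nn * (rt chevE7 125 i : ℝ) :=
        Finset.sum_le_sum fun i _ => mul_le_mul_of_nonneg_right (S.br_label h5 i) (by exact_mod_cast h1 i)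
    _ = _ := by rw [← Finset.mul_sum, ← Int.cast_sum, h2, mul_comm]; norm_num

/-! ### the action on the Lie algebra -/

variable {d : ℝ} {y : chevE7.Idx → k} {v : D1 → k}

theorem br_u_g (t : K) (hy : y ∈ S.Fg d) : adM k (S.ψ (u t)) *ᵥ y - y - br k (S.br_z t) y ∈ S.Fgt (d + S.nn) := by
  have h2 := two_ne (S.br_h12 h5)
  have h1 := adM_lead h2 (S.br_u_mem t).1 S.nn_pos (S.br_z_mem h5 t) (S.br_u_lead h5 t) hy
  rwa [toLin'_apply, toLin'_apply, br_u_mulVec, ← adM_br h2, ← mulVec_sub, ← mulVec_sub] at h1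

theorem br_u_g' (t : K) (hy : y ∈ S.Fg d) : adM k (S.ψ (u t)) *ᵥ y - y ∈ S.Fg (d + S.nn) := by
  have h1 := add_mem (S.br_Ft_le_F (S.br_u_g h5 t hy))
    (add_comm S.nn d ▸ S.br_br_F (two_ne (S.br_h12 h5)) (S.br_z_mem h5 t) hy)
  rwa [sub_add_cancel] at h1

theorem br_u_gr (t : K) (hy : y ∈ S.Fg d) :
    S.grg (d + S.nn) (adM k (S.ψ (u t)) *ᵥ y - y) = br k (S.br_et t) (S.grg d y) := by
  rw [S.br_gr_eq (S.br_u_g h5 t hy), add_comm, S.br_grg_br (two_ne (S.br_h12 h5)) (S.br_z_mem h5 t) hy, br_et]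

theorem br_D_g {m : ℕ} (h1 : 1 ≤ m) (hy : y ∈ S.Fg d) : Dm S.ι S.RL m y - br k (S.br_E m) y ∈ S.Fgt (d + S.nn) := by
  rw [Dm_sub S.ι S.RL h1, br_E_eq, map_neg, map_sum, LinearMap.neg_apply, LinearMap.sum_apply, ← neg_sub',
    ← Finset.sum_sub_distrib]
  refine neg_mem (sum_mem fun t _ => ?_)
  rw [map_smul, LinearMap.smul_apply, ← smul_sub, br_RL]
  exact Submodule.smul_mem _ _ (S.br_u_g h5 t hy)

theorem br_D_g' {m : ℕ} (h1 : 1 ≤ m) (hy : y ∈ S.Fg d) : Dm S.ι S.RL m y ∈ S.Fg (d + S.nn) := by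
  rw [Dm_sub S.ι S.RL h1]
  exact neg_mem (sum_mem fun t _ => Submodule.smul_mem _ _ (by rw [br_RL]; exact S.br_u_g' h5 t hy))

/-- the leading term of `D_{p ^ j}` -/
theorem br_D_gr (j : ℕ) (hy : y ∈ S.Fg d) : S.grg (d + S.nn) (Dm S.ι S.RL (p ^ j) y) = br k (S.br_e j) (S.grg d y) := by
  rw [S.br_gr_eq (S.br_D_g h5 (Nat.pow_pos S.prime.pos) hy), add_comm,
    S.br_grg_br (two_ne (S.br_h12 h5)) (S.br_E_mem h5 _) hy, br_e]

/-- the digit sum -/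
theorem br_D_sum {m : ℕ} (h1 : 1 ≤ m) (h2 : m ≤ Fintype.card K - 1) (hy : y ∈ S.Fg d) :
    Dm S.ι S.RL m y ∈ S.Fg (d + ∑ j ∈ Finset.range a, (m / p ^ j % p : ℕ) * S.nn) := by
  have := S.chark
  have := S.charK
  have : Fact p.Prime := ⟨S.prime⟩
  exact Dm_filt S.ι S.RL p S.cardK S.Fg (fun _ => S.nn) (fun j hj d x hx => S.br_D_g' h5 (S.br_pow hj).1 hx) h1 h2 hy

open Classical in
/-- the digits outside `I0` count more -/
theorem br_D_plus : ∃ n', S.nn < n' ∧ ∀ m, 1 ≤ m → m ≤ Fintype.card K - 1 → ∀ d, ∀ y ∈ S.Fg d,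
    Dm S.ι S.RL m y ∈ S.Fg (d + ∑ j ∈ Finset.range a, (m / p ^ j % p : ℕ) * if S.br_e j = 0 then n' else S.nn) := by
  have := S.chark
  have := S.charK
  have : Fact p.Prime := ⟨S.prime⟩
  obtain ⟨n', h1, h2⟩ := S.br_gap ac (adM k) S.nn
  refine ⟨n', h1, fun m h3 h4 d y hy => Dm_filt S.ι S.RL p S.cardK S.Fg (fun j => if S.br_e j = 0 then n' else S.nn)
    (fun j hj d x hx => ?_) h3 h4 hy⟩
  show _ ∈ S.Fg (d + if S.br_e j = 0 then n' else S.nn)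
  split_ifs with h0
  · exact h2 _ (fun e y hy => S.br_Ft_of_gr (S.br_D_g' h5 (S.br_pow hj).1 hy) (by
      rw [S.br_D_gr h5 j hy, h0, map_zero, LinearMap.zero_apply])) d x hx
  · exact S.br_D_g' h5 (S.br_pow hj).1 hx

theorem br_j1_step (hd : d < 0) (hy : y ∈ S.Fg d)
    (h : ∀ j < a, S.br_e j ≠ 0 → Dm S.ι S.RL (p ^ j) y ∈ S.Fgt (d + S.nn)) : y ∈ S.Fgt d :=
  S.br_Ft_of_gr hy (S.br_cent_Lv h5 hd (S.br_gr_mem d y) fun j hj h0 => by
    rw [← S.br_D_gr h5 j hy, S.br_gr_of_Ft (h j hj h0)])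

/-- **J1** for the operators `D_{p ^ j}`, `j ∈ I0` -/
theorem br_j1D (hd : d ≤ S.nn) (h : ∀ j < a, S.br_e j ≠ 0 → Dm S.ι S.RL (p ^ j) y ∈ S.Fg d) : y ∈ S.Fg (d - S.nn) :=
  S.br_F_of_step fun e he hy => S.br_j1_step h5 (by linarith) hy fun j hj h0 => S.br_F_le_Ft (by linarith) (h j hj h0)

theorem br_j1D' (hd : d < S.nn) (h : ∀ j < a, S.br_e j ≠ 0 → Dm S.ι S.RL (p ^ j) y ∈ S.Fgt d) : y ∈ S.Fgt (d - S.nn) :=
  S.br_j1_step h5 (by linarith) (S.br_j1D h5 hd.le fun j hj h0 => S.br_Ft_le_F (h j hj h0)) fun j hj h0 => by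
    rw [sub_add_cancel]
    exact h j hj h0

/-- **J1** -/
theorem j1 : S.J1 := fun y d hd h => S.br_j1D h5 hd fun j hj _ => by
  rw [Dm_sub S.ι S.RL (S.br_pow hj).1]
  exact neg_mem (sum_mem fun t _ => Submodule.smul_mem _ _ (by rw [br_RL]; exact h t))

/-! ### the action on `V` -/

theorem br_u_Vt (t : K) (hv : v ∈ S.FV d) : rho k (S.ψ (u t)) *ᵥ v - v - del k (S.br_z t) *ᵥ v ∈ S.FVt (d + S.nn) := by
  have h1 := MGt_mulVec (S.br_u_lead h5 t) hv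
  rwa [toLin'_apply, sub_mulVec, sub_mulVec, one_mulVec, br_u_mulVec, ← br_del_conj (two_ne (S.br_h12 h5)), ← mulVec_sub,
    ← mulVec_sub] at h1

theorem br_D_Vt {m : ℕ} (h1 : 1 ≤ m) (hv : v ∈ S.FV d) : Dm S.ι S.R m v - del k (S.br_E m) *ᵥ v ∈ S.FVt (d + S.nn) := by
  rw [Dm_sub S.ι S.R h1, br_E_eq, map_neg, map_sum, neg_mulVec, sum_mulVec, ← neg_sub', ← Finset.sum_sub_distrib]
  refine neg_mem (sum_mem fun t _ => ?_)
  rw [map_smul, smul_mulVec, ← smul_sub, br_R]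
  exact Submodule.smul_mem _ _ (S.br_u_Vt h5 t hv)

end

end Sit

end Cfsg.Agent.E7P
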