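import Cfsg.Agent.E7P.Iface

/-!
# S5932, task BR: levels, the bracket, leading terms (helper8)

* `Lv`, `lv` : the graded pieces of a module and the projections; `MGe`, `MGt` : levels of matrices;
* `exists_levi` : the Levi part of an element of `Pl β`; `lead` : **LEAD**;
* `br` : the bracket of the Lie algebra; levels of `del` and `br`; `St_del`.
-/

set_option autoImplicit false
set_option maxRecDepth 100000

namespace Cfsg.Agent.E7P.Br

open Cfsg Cfsg.Lie Matrix Module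
open Cfsg.Agent.H943.E7V.Block (D1 rho)
open Cfsg.Agent.R2.T1 Cfsg.Agent.E7P.Kf
open Cfsg.Agent.R2.PX (del)
open Cfsg.Agent.ChevalleyStructure.RootVec (rt)

universe u

variable {K : Type u} [Field K]

/-! ### graded pieces -/

section Gr
variable {I : Type*}

variable (K) in
/-- the vectors of level `d` -/
def Lv (c : I → Fin 7 → ℤ) (β : E) (d : ℝ) : Submodule K (I → K) where
  carrier := {x | ∀ i, x i ≠ 0 → bf β (cv (c i)) = d}
  zero_mem' := fun _ h => absurd rfl h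
  add_mem' := by
    intro x y hx hy i hi
    by_cases h : x i = 0
    · rw [Pi.add_apply, h, zero_add] at hi
      exact hy i hi
    · exact hx i h
  smul_mem' := fun _ _ hx i hi => hx i (right_ne_zero_of_mul hi)

open Classical in
/-- the projection to the weights with `P` -/
noncomputable def pj (c : I → Fin 7 → ℤ) (P : E → Prop) : (I → K) →ₗ[K] (I → K) where
  toFun x i := if P (cv (c i)) then x i else 0
  map_add' x y := by
    funext i
    rw [Pi.add_apply, Pi.add_apply]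
    split_ifs
    · rfl
    · rw [add_zero]
  map_smul' a x := by
    funext i
    rw [Pi.smul_apply, Pi.smul_apply, RingHom.id_apply]
    split_ifs
    · rfl
    · rw [smul_zero]

variable {c : I → Fin 7 → ℤ} {β : E} {d d' : ℝ} {x : I → K}

theorem pj_pos {P : E → Prop} {i : I} (h : P (cv (c i))) (x : I → K) : pj c P x i = x i := if_pos h

theorem pj_neg {P : E → Prop} {i : I} (h : ¬ P (cv (c i))) (x : I → K) : pj c P x i = 0 := if_neg h

/-- the component of level `d` -/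
noncomputable def lv (c : I → Fin 7 → ℤ) (β : E) (d : ℝ) : (I → K) →ₗ[K] (I → K) := pj c fun s => bf β s = d

theorem lv_pos {i : I} (h : bf β (cv (c i)) = d) (x : I → K) : lv c β d x i = x i := pj_pos h x

theorem lv_neg {i : I} (h : bf β (cv (c i)) ≠ d) (x : I → K) : lv c β d x i = 0 := pj_neg h x

theorem mem_Lv : x ∈ Lv K c β d ↔ ∀ i, x i ≠ 0 → bf β (cv (c i)) = d := Iff.rfl

theorem lv_ne {i : I} (h : lv c β d x i ≠ 0) : bf β (cv (c i)) = d ∧ x i ≠ 0 := by
  have h1 : bf β (cv (c i)) = d := by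
    by_contra h1
    exact h (lv_neg h1 x)
  exact ⟨h1, by rwa [lv_pos h1] at h⟩

theorem lv_mem (x : I → K) : lv c β d x ∈ Lv K c β d := fun _ hi => (lv_ne hi).1

theorem Lv_le_Ge : Lv K c β d ≤ Ge K c β d := fun _ hx i hi => (hx i hi).ge

theorem Gt_le_Ge : Gt K c β d ≤ Ge K c β d := fun _ hx i hi => (hx i hi).le

theorem Ge_mono (h : d ≤ d') : Ge K c β d' ≤ Ge K c β d := fun _ hx i hi => h.trans (hx i hi)

theorem Gt_mono (h : d ≤ d') : Gt K c β d' ≤ Gt K c β d := fun _ hx i hi => h.trans_lt (hx i hi)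

theorem Ge_le_Gt (h : d < d') : Ge K c β d' ≤ Gt K c β d := fun _ hx i hi => h.trans_le (hx i hi)

theorem lv_of_Lv (hx : x ∈ Lv K c β d) : lv c β d x = x := by
  funext i
  by_cases h : x i = 0
  · by_contra h1
    rw [h] at h1
    exact (lv_ne h1).2 h
  · exact lv_pos (hx i h) x

theorem lv_of_Gt (hx : x ∈ Gt K c β d) : lv c β d x = 0 := by
  funext i
  by_contra h
  exact (hx i (lv_ne h).2).ne' (lv_ne h).1

theorem lv_of_ne (hx : x ∈ Lv K c β d) (h : d ≠ d') : lv c β d' x = 0 := by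
  funext i
  by_contra h1
  exact h ((hx i (lv_ne h1).2).symm.trans (lv_ne h1).1)

theorem sub_lv_mem (hx : x ∈ Ge K c β d) : x - lv c β d x ∈ Gt K c β d := by
  intro i hi
  by_cases h : bf β (cv (c i)) = d
  · rw [Pi.sub_apply, lv_pos h, sub_self] at hi
    exact absurd rfl hi
  · rw [Pi.sub_apply, lv_neg h, sub_zero] at hi
    exact (hx i hi).lt_of_ne' h

theorem mem_Gt_of_lv (hx : x ∈ Ge K c β d) (h : lv c β d x = 0) : x ∈ Gt K c β d := by
  have h1 := sub_lv_mem hx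
  rwa [h, sub_zero] at h1

theorem eq_zero_of_Lv_Gt (hx : x ∈ Lv K c β d) (h : x ∈ Gt K c β d) : x = 0 := by rw [← lv_of_Lv hx, lv_of_Gt h]

theorem lv_eq_of_sub {y : I → K} (h : x - y ∈ Gt K c β d) : lv c β d x = lv c β d y := by
  rw [← sub_eq_zero, ← map_sub, lv_of_Gt h]

theorem mem_Lv_neg : x ∈ Lv K c (-β) (-d) ↔ x ∈ Lv K c β d := by
  refine forall_congr' fun i => imp_congr_right fun _ => ?_
  rw [map_neg, LinearMap.neg_apply, neg_inj]

theorem Lv_of_Ge (h : x ∈ Ge K c β d) (h' : x ∈ Ge K c (-β) (-d)) : x ∈ Lv K c β d := fun i hi => by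
  have h1 := h' i hi
  rw [map_neg, LinearMap.neg_apply] at h1
  exact le_antisymm (neg_le_neg_iff.1 h1) (h i hi)

/-- the lowest level -/
theorem exists_low [Finite I] (c : I → Fin 7 → ℤ) (β : E) (hx : x ≠ 0) :
    ∃ i, x i ≠ 0 ∧ x ∈ Ge K c β (bf β (cv (c i))) := by
  obtain ⟨i0, h0⟩ := Function.ne_iff.1 hx
  have : Nonempty {i // x i ≠ 0} := ⟨⟨i0, h0⟩⟩
  obtain ⟨i, hi⟩ := Finite.exists_min fun i : {i // x i ≠ 0} => bf β (cv (c i.1))
  exact ⟨i.1, i.2, fun j hj => hi ⟨j, hj⟩⟩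

theorem eq_zero_of_step [Finite I] (h : ∀ d, x ∈ Ge K c β d → x ∈ Gt K c β d) : x = 0 := by
  by_contra h0
  obtain ⟨i, hi, h1⟩ := exists_low c β h0
  exact lt_irrefl _ (h _ h1 i hi)

theorem mem_Ge_of_step [Finite I] (h : ∀ e < d, x ∈ Ge K c β e → x ∈ Gt K c β e) : x ∈ Ge K c β d := by
  by_cases h0 : x = 0
  · rw [h0]
    exact zero_mem _
  obtain ⟨i, hi, h1⟩ := exists_low c β h0
  by_cases h2 : bf β (cv (c i)) < d
  · exact absurd (h _ h2 h1 i hi) (lt_irrefl _)
  · exact Ge_mono (not_lt.1 h2) h1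

/-- descent along the levels -/
theorem lev_desc [Finite I] {α : Type*} (c : I → Fin 7 → ℤ) (β : E) (f : α → I → K) (a0 : α)
    (h : ∀ a d, f a ∈ Ge K c β d → lv c β d (f a) ≠ 0 → ∃ a', f a' ∈ Gt K c β d) : ∃ a, f a = 0 := by
  classical
  have := Fintype.ofFinite I
  let N : α → Finset I := fun a => Finset.univ.filter fun i => ∃ j, f a j ≠ 0 ∧ bf β (cv (c j)) ≤ bf β (cv (c i))
  have : Nonempty α := ⟨a0⟩
  let a := Function.argmin fun a => (N a).card
  refine ⟨a, ?_⟩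
  by_contra h0
  obtain ⟨i, hi, h1⟩ := exists_low c β h0
  obtain ⟨a', ha'⟩ := h a _ h1 fun e => hi ((lv_pos rfl (f a)).symm.trans (congrFun e i))
  have h2 : N a' ⊂ N a := by
    refine (Finset.ssubset_iff_of_subset fun k hk => ?_).2 ⟨i, ?_, fun hk => ?_⟩
    · obtain ⟨j, h3, h4⟩ := (Finset.mem_filter.1 hk).2
      exact Finset.mem_filter.2 ⟨Finset.mem_univ _, i, hi, (ha' j h3).le.trans h4⟩
    · exact Finset.mem_filter.2 ⟨Finset.mem_univ _, i, hi, le_rfl⟩
    · obtain ⟨j, h3, h4⟩ := (Finset.mem_filter.1 hk).2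
      exact absurd (ha' j h3) (not_lt.2 h4)
  exact Function.not_lt_argmin (fun a => (N a).card) a' (Finset.card_lt_card h2)

/-! ### levels of matrices -/

variable (K) in
/-- the matrices which raise the level by at least `d` -/
def MGe (c : I → Fin 7 → ℤ) (β : E) (d : ℝ) : Submodule K (Matrix I I K) where
  carrier := {X | ∀ i j, X i j ≠ 0 → bf β (cv (c j)) + d ≤ bf β (cv (c i))}
  zero_mem' := fun _ _ h => absurd rfl h
  add_mem' := by
    intro X Y hX hY i j h
    by_cases h1 : X i j = 0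
    · rw [Matrix.add_apply, h1, zero_add] at h
      exact hY i j h
    · exact hX i j h1
  smul_mem' := fun _ _ hX i j h => hX i j (right_ne_zero_of_mul h)

variable (K) in
/-- the matrices which raise the level by more than `d` -/
def MGt (c : I → Fin 7 → ℤ) (β : E) (d : ℝ) : Submodule K (Matrix I I K) where
  carrier := {X | ∀ i j, X i j ≠ 0 → bf β (cv (c j)) + d < bf β (cv (c i))}
  zero_mem' := fun _ _ h => absurd rfl h
  add_mem' := by
    intro X Y hX hY i j h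
    by_cases h1 : X i j = 0
    · rw [Matrix.add_apply, h1, zero_add] at h
      exact hY i j h
    · exact hX i j h1
  smul_mem' := fun _ _ hX i j h => hX i j (right_ne_zero_of_mul h)

variable {X Y : Matrix I I K}

theorem mem_MGe : X ∈ MGe K c β d ↔ ∀ i j, X i j ≠ 0 → bf β (cv (c j)) + d ≤ bf β (cv (c i)) := Iff.rfl

theorem mem_MGt : X ∈ MGt K c β d ↔ ∀ i j, X i j ≠ 0 → bf β (cv (c j)) + d < bf β (cv (c i)) := Iff.rfl

theorem MGt_le_MGe : MGt K c β d ≤ MGe K c β d := fun _ h i j hij => (h i j hij).le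

theorem MGe_mono (h : d ≤ d') : MGe K c β d' ≤ MGe K c β d := fun _ hX i j hij => by
  have := hX i j hij
  linarith

theorem MGt_mono (h : d ≤ d') : MGt K c β d' ≤ MGt K c β d := fun _ hX i j hij => by
  have := hX i j hij
  linarith

theorem MGe_le_MGt (h : d < d') : MGe K c β d' ≤ MGt K c β d := fun _ hX i j hij => by
  have := hX i j hij
  linarith

theorem bf_end (β : E) (i j : I) : bf β (cv (c i + - c j)) = bf β (cv (c i)) - bf β (cv (c j)) := by
  rw [cv_add, cv_neg, map_add, map_neg, sub_eq_add_neg]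

theorem vec_Ge : Kf.vec X ∈ Ge K (fun x : I × I => c x.1 + - c x.2) β d ↔ X ∈ MGe K c β d := by
  refine ⟨fun h i j hij => ?_, fun h x hx => ?_⟩
  · have h1 := h (i, j) hij
    rw [bf_end] at h1
    exact le_sub_iff_add_le'.1 h1
  · rw [bf_end]
    exact le_sub_iff_add_le'.2 (h _ _ hx)

theorem vec_Gt : Kf.vec X ∈ Gt K (fun x : I × I => c x.1 + - c x.2) β d ↔ X ∈ MGt K c β d := by
  refine ⟨fun h i j hij => ?_, fun h x hx => ?_⟩
  · have h1 := h (i, j) hij
    rw [bf_end] at h1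
    exact lt_sub_iff_add_lt'.1 h1
  · rw [bf_end]
    exact lt_sub_iff_add_lt'.2 (h _ _ hx)

theorem M_eq_zero_of_step [Finite I] (h : ∀ d, X ∈ MGe K c β d → X ∈ MGt K c β d) : X = 0 := by
  have h1 : Kf.vec X = 0 := eq_zero_of_step fun d hd => vec_Gt.2 (h d (vec_Ge.1 hd))
  ext i j
  exact congrFun h1 (i, j)

/-- a uniform gap -/
theorem exists_gap [Finite I] (c : I → Fin 7 → ℤ) (β : E) (d : ℝ) : ∃ d', d < d' ∧ Gt K c β d ≤ Ge K c β d' := by
  by_cases h : ∃ i, d < bf β (cv (c i))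
  · obtain ⟨i0, h0⟩ := h
    have : Nonempty {i // d < bf β (cv (c i))} := ⟨⟨i0, h0⟩⟩
    obtain ⟨i, hi⟩ := Finite.exists_min fun i : {i // d < bf β (cv (c i))} => bf β (cv (c i.1))
    exact ⟨_, i.2, fun x hx j hj => hi ⟨j, hx j hj⟩⟩
  · exact ⟨d + 1, lt_add_one d, fun x hx j hj => absurd ⟨j, hx j hj⟩ h⟩

theorem exists_gapM [Finite I] (c : I → Fin 7 → ℤ) (β : E) (d : ℝ) : ∃ d', d < d' ∧ MGt K c β d ≤ MGe K c β d' := by
  obtain ⟨d', h1, h2⟩ := exists_gap (K := K) (fun x : I × I => c x.1 + - c x.2) β d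
  exact ⟨d', h1, fun X hX => vec_Ge.1 (h2 (vec_Gt.2 hX))⟩

variable [Fintype I]

theorem MGe_mul (hX : X ∈ MGe K c β d) (hY : Y ∈ MGe K c β d') : X * Y ∈ MGe K c β (d + d') := fun i j h => by
  obtain ⟨k, h1, h2⟩ := exists_mid' h
  have := hX i k h1
  have := hY k j h2
  linarith

theorem MGt_mul (hX : X ∈ MGt K c β d) (hY : Y ∈ MGe K c β d') : X * Y ∈ MGt K c β (d + d') := fun i j h => by
  obtain ⟨k, h1, h2⟩ := exists_mid' h
  have := hX i k h1
  have := hY k j h2
  linarith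

theorem mul_MGt (hX : X ∈ MGe K c β d) (hY : Y ∈ MGt K c β d') : X * Y ∈ MGt K c β (d + d') := fun i j h => by
  obtain ⟨k, h1, h2⟩ := exists_mid' h
  have := hX i k h1
  have := hY k j h2
  linarith

theorem MGe_mulVec (hX : X ∈ MGe K c β d) (hx : x ∈ Ge K c β d') : X *ᵥ x ∈ Ge K c β (d' + d) := fun i h => by
  obtain ⟨k, h1, h2⟩ := exists_col h
  have := hX i k h1
  have := hx k h2
  linarith

theorem MGt_mulVec (hX : X ∈ MGt K c β d) (hx : x ∈ Ge K c β d') : X *ᵥ x ∈ Gt K c β (d' + d) := fun i h => by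
  obtain ⟨k, h1, h2⟩ := exists_col h
  have := hX i k h1
  have := hx k h2
  linarith

theorem mulVec_Gt (hX : X ∈ MGe K c β d) (hx : x ∈ Gt K c β d') : X *ᵥ x ∈ Gt K c β (d' + d) := fun i h => by
  obtain ⟨k, h1, h2⟩ := exists_col h
  have := hX i k h1
  have := hx k h2
  linarith

variable [DecidableEq I] {R : Gh K →* Matrix I I K}

omit [Fintype I] in
theorem one_MGe : (1 : Matrix I I K) ∈ MGe K c β 0 := fun i j h => by
  have h1 : i = j := by
    by_contra h1
    exact h (one_apply_ne h1)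
  rw [h1, add_zero]

theorem MGe_of_mulVec (h : ∀ d', ∀ x ∈ Lv K c β d', X *ᵥ x ∈ Ge K c β (d' + d)) : X ∈ MGe K c β d := fun i j hij =>
  h _ (Pi.single j 1) (fun k hk => by
    have h1 : k = j := by
      by_contra h1
      exact hk (Pi.single_eq_of_ne h1 _)
    rw [h1]) i (by rwa [mulVec_single_one, col_apply])

theorem MGt_of_mulVec (h : ∀ d', ∀ x ∈ Lv K c β d', X *ᵥ x ∈ Gt K c β (d' + d)) : X ∈ MGt K c β d := fun i j hij =>
  h _ (Pi.single j 1) (fun k hk => by
    have h1 : k = j := by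
      by_contra h1
      exact hk (Pi.single_eq_of_ne h1 _)
    rw [h1]) i (by rwa [mulVec_single_one, col_apply])

theorem Pl_MGe (hR : WRep c R) {y : Gh K} (hy : y ∈ Pl K β) : R y ∈ MGe K c β 0 := fun i j hij => by
  rw [add_zero]
  exact hR.tri hy i j hij

theorem conj_MGe (hR : WRep c R) {y z : Gh K} (hy : y ∈ Pl K β) (hz : z ∈ Pl K β) (hX : X ∈ MGe K c β d) :
    R y * X * R z ∈ MGe K c β d := by
  have h1 := MGe_mul (MGe_mul (Pl_MGe hR hy) hX) (Pl_MGe hR hz)
  rwa [zero_add, add_zero] at h1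

theorem conj_MGt (hR : WRep c R) {y z : Gh K} (hy : y ∈ Pl K β) (hz : z ∈ Pl K β) (hX : X ∈ MGt K c β d) :
    R y * X * R z ∈ MGt K c β d := by
  have h1 := MGt_mul (mul_MGt (Pl_MGe hR hy) hX) (Pl_MGe hR hz)
  rwa [zero_add, add_zero] at h1

/-- the Levi subgroup preserves the levels -/
theorem levi_Lv (hR : WRep c R) {y : Gh K} (hy : y ∈ Pl K β) (hy' : y ∈ Pl K (-β)) (hx : x ∈ Lv K c β d) :
    R y *ᵥ x ∈ Lv K c β d :=
  Lv_of_Ge (hR.Ge_stab hy (Lv_le_Ge hx)) (hR.Ge_stab hy' (Lv_le_Ge (mem_Lv_neg.2 hx)))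

/-- root elements of positive level act trivially on the graded module -/
theorem xs_sub_one [Infinite K] (hR : WRep c R) {r : ℕ} (hr : r < 126) (h0 : 0 < bf β (rv r)) (t : K) :
    R (xs K r t) - 1 ∈ MGt K c β 0 := by
  obtain ⟨i0, hi0⟩ : ∃ i0, rc r i0 ≠ 0 := by
    by_contra hc
    push Not at hc
    exact rv_ne hr ((congrArg cv (show rc r = 0 from funext hc)).trans cv_zero)
  obtain ⟨z, hz⟩ := exists_zpow_ne (K := K) hi0
  let a : Fin chevE7.rank → Kˣ := Pi.mulSingle i0 z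
  have hχ : ch (rc r) a = z ^ rc r i0 := ch_single _ _ _
  have h1 : ∀ s : K, R (xs K r ((ch (rc r) a : Kˣ) * s)) - R (xs K r s) ∈ MGt K c β 0 := by
    intro s i j hij
    have e : xs K r ((ch (rc r) a : Kˣ) * s) = Phi K a * xs K r s * Phi K a⁻¹ := by
      rw [map_inv]
      exact (Five.Phi_xs a hr s).symm
    rw [e, map_mul, map_mul, hR.tor, hR.tor, Matrix.sub_apply, mul_diagonal, diagonal_mul] at hij
    have h2 : R (xs K r s) i j ≠ 0 := fun h => hij (by rw [h, mul_zero, zero_mul, sub_zero])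
    obtain ⟨m, hm⟩ := hR.root r hr s i j h2
    have h3 : m ≠ 0 := by
      rintro rfl
      rw [zero_smul, add_zero] at hm
      rw [hm, ch_inv, mul_right_comm, Units.mul_inv, one_mul, sub_self] at hij
      exact hij rfl
    rw [hm, cv_add, cv_nsmul, map_add, map_smul, smul_eq_mul, add_zero]
    exact lt_add_of_pos_right _ (mul_pos (Nat.cast_pos.2 (Nat.pos_of_ne_zero h3)) h0)
  have h2 : (1 : K) - (ch (rc r) a : Kˣ) ≠ 0 := fun h => hz (by
    rw [← hχ]
    exact Units.ext (sub_eq_zero.1 h).symm)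
  obtain ⟨s, rfl⟩ : ∃ s, t = (ch (rc r) a : Kˣ) * (-s) + s := ⟨t / (1 - (ch (rc r) a : Kˣ)), by field_simp; ring⟩
  have h3 := MGt_mul (h1 (-s)) (Pl_MGe hR (xs_mem_Pl hr h0.le s))
  rwa [add_zero, sub_mul, ← map_mul, ← map_mul, xs_mul, xs_mul, neg_add_cancel, xs_zero, map_one] at h3

end Gr

/-- **the Levi part** -/
theorem exists_levi [Infinite K] {β : E} {y : Gh K} (hy : y ∈ Pl K β) : ∃ l ∈ Pl K β, l ∈ Pl K (-β) ∧
    ∀ (I : Type) [Fintype I] [DecidableEq I] (c : I → Fin 7 → ℤ) (R : Gh K →* Matrix I I K), WRep c R →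
      R y - R l ∈ MGt K c β 0 := by
  refine Pl_induction (P := fun y => ∃ l ∈ Pl K β, l ∈ Pl K (-β) ∧
    ∀ (I : Type) [Fintype I] [DecidableEq I] (c : I → Fin 7 → ℤ) (R : Gh K →* Matrix I I K), WRep c R →
      R y - R l ∈ MGt K c β 0) ?_ ?_ ?_ ?_ hy
  · exact ⟨1, one_mem _, one_mem _, fun _ _ _ _ _ _ => by rw [sub_self]; exact zero_mem _⟩
  · rintro a b - hb ⟨l, hl, hl', h1⟩ ⟨m, hm, hm', h2⟩
    refine ⟨l * m, mul_mem hl hm, mul_mem hl' hm', fun I _ _ c R hR => ?_⟩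
    have h3 := MGt_mul (h1 I c R hR) (Pl_MGe hR hb)
    have h4 := mul_MGt (Pl_MGe hR hl) (h2 I c R hR)
    rw [add_zero] at h3 h4
    have e : R (a * b) - R (l * m) = (R a - R l) * R b + R l * (R b - R m) := by
      rw [map_mul, map_mul, sub_mul, mul_sub]
      abel
    rw [e]
    exact add_mem h3 h4
  · intro r hr h0 t
    rcases h0.eq_or_lt with h1 | h1
    · exact ⟨_, xs_mem_Pl hr h0 t, xs_mem_Pl hr (by rw [map_neg, LinearMap.neg_apply, ← h1, neg_zero]) t,
        fun _ _ _ _ _ _ => by rw [sub_self]; exact zero_mem _⟩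
    · exact ⟨1, one_mem _, one_mem _, fun I _ _ c R hR => by rw [map_one]; exact xs_sub_one hR hr h1 t⟩
  · exact fun a => ⟨_, Phi_mem_Pl _ a, Phi_mem_Pl _ a, fun _ _ _ _ _ _ => by rw [sub_self]; exact zero_mem _⟩

theorem Ul_MGt {β : E} {y : Gh K} (hy : y ∈ Ul K β) : rho K y - 1 ∈ MGt K wc β 0 := fun i j hij => by
  rw [add_zero]
  exact hy.2 i j hij

theorem mem_Ul {β : E} {y : Gh K} (hy : y ∈ Pl K β) (h : rho K y - 1 ∈ MGt K wc β 0) : y ∈ Ul K β :=
  ⟨hy, fun i j hij => by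
    have h1 := h i j hij
    rwa [add_zero] at h1⟩

/-- `Ul β` meets the opposite parabolic subgroup trivially -/
theorem eq_one_of_opp {β : E} {y : Gh K} (hy : y ∈ Ul K β) (hy' : y ∈ Pl K (-β)) : y = 1 := by
  apply rho_injective
  rw [map_one, ← sub_eq_zero]
  ext i j
  by_contra h
  have h1 := hy.2 i j h
  have h2 : i ≠ j := by
    rintro rfl
    exact lt_irrefl _ h1
  rw [Matrix.sub_apply, one_apply_ne h2, sub_zero] at h
  have h3 := wrep_V.tri hy' i j h
  rw [map_neg, LinearMap.neg_apply, LinearMap.neg_apply] at h3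
  exact absurd h1 (not_lt.2 (neg_le_neg_iff.1 h3))

/-- the unipotent radical acts trivially on every graded module -/
theorem Ul_sub_one [Infinite K] {I : Type} [Fintype I] [DecidableEq I] {c : I → Fin 7 → ℤ} {R : Gh K →* Matrix I I K}
    (hR : WRep c R) {β : E} {y : Gh K} (hy : y ∈ Ul K β) : R y - 1 ∈ MGt K c β 0 := by
  obtain ⟨l, hl, hl', h⟩ := exists_levi hy.1
  have h1 : l = 1 := eq_one_of_opp (mem_Ul hl (by
    have h2 := sub_mem (Ul_MGt hy) (h _ _ _ wrep_V)
    rwa [sub_sub_sub_cancel_left] at h2)) hl'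
  have h2 := h I c R hR
  rwa [h1, map_one] at h2

/-! ### leading terms -/

theorem mem_face {S : Set E} {β y : E} {n : ℝ} (hS : ∀ s ∈ S, n ≤ bf β s) (hy : y ∈ convexHull ℝ S) (h : bf β y = n) :
    y ∈ convexHull ℝ {s | s ∈ S ∧ bf β s = n} := by
  have h1 : convexHull ℝ S ⊆ {y | n ≤ bf β y ∧ (bf β y = n → y ∈ convexHull ℝ {s | s ∈ S ∧ bf β s = n})} := by
    refine convexHull_min (fun s hs => ⟨hS s hs, fun e => subset_convexHull ℝ _ ⟨hs, e⟩⟩) ?_
    rintro x ⟨hx, hx'⟩ z ⟨hz, hz'⟩ a b ha hb hab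
    have e : bf β (a • x + b • z) = a * bf β x + b * bf β z := by rw [map_add, map_smul, map_smul]; rfl
    have h2 := mul_le_mul_of_nonneg_left hx ha
    have h3 := mul_le_mul_of_nonneg_left hz hb
    have h4 : a * n + b * n = n := by rw [← add_mul, hab, one_mul]
    refine ⟨by rw [e]; linarith, fun h5 => ?_⟩
    rw [e] at h5
    rcases ha.eq_or_lt with rfl | ha'
    · rw [zero_add] at hab
      subst hab
      rw [zero_smul, zero_add, one_smul]
      exact hz' (by linarith)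
    rcases hb.eq_or_lt with rfl | hb'
    · rw [add_zero] at hab
      subst hab
      rw [zero_smul, add_zero, one_smul]
      exact hx' (by linarith)
    exact convex_convexHull ℝ _ (hx' (mul_left_cancel₀ ha'.ne' (by linarith)))
      (hz' (mul_left_cancel₀ hb'.ne' (by linarith))) ha hb hab
  exact (h1 hy).2 h

section Lead
variable {I : Type} [Fintype I] [DecidableEq I] {c : I → Fin 7 → ℤ} {R : Gh K →* Matrix I I K} {X Y : Set (I → K)}

theorem St_sub_of_span (h : X ⊆ Submodule.span K Y) (g : Gh K) : St c R X g ⊆ St c R Y g := by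
  rintro _ ⟨i, rfl, v, hv, hi⟩
  by_contra hc
  have h1 : Submodule.span K Y ≤ LinearMap.ker ((LinearMap.proj i : (I → K) →ₗ[K] K) ∘ₗ toLin' (R g⁻¹)) :=
    Submodule.span_le.2 fun y hy => by
      by_contra h2
      exact hc ⟨i, rfl, y, hy, h2⟩
  exact hi (h1 (h hv))

theorem St_eq_of_span (h : X ⊆ Submodule.span K Y) (h' : Y ⊆ Submodule.span K X) : St c R X = St c R Y :=
  funext fun g => (St_sub_of_span h g).antisymm (St_sub_of_span h' g)

theorem Opt_Ge {g : Gh K} {β : E} (ho : Opt bf (St c R X) g β) {v : I → K} (hv : v ∈ X) :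
    R g⁻¹ *ᵥ v ∈ Ge K c β (bf β β) := fun i hi => ho.1.2 _ ⟨i, rfl, v, hv, hi⟩

theorem exists_ne_of_opt {g : Gh K} {β : E} (ho : Opt bf (St c R X) g β) : ∃ v ∈ X, v ≠ 0 := by
  obtain ⟨_, i, -, v, hv, hi⟩ := convexHull_nonempty_iff.1 ⟨β, ho.1.1⟩
  exact ⟨v, hv, fun e => hi (by rw [e, mulVec_zero]; rfl)⟩

/-- **LEAD**: the leading terms have the same optimal cocharacter -/
theorem lead [Infinite K] (hR : WRep c R) {g : Gh K} {β : E} (ho : Opt bf (St c R X) g β) (hβ : Dom β) :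
    Opt bf (St c R ((fun v => lv c β (bf β β) (R g⁻¹ *ᵥ v)) '' X)) 1 β := by
  set Z := (fun v => lv c β (bf β β) (R g⁻¹ *ᵥ v)) '' X with hZ
  have h1 : IsCl bf (St c R Z 1) β := by
    refine ⟨convexHull_mono ?_ (mem_face ho.1.2 ho.1.1 rfl), ?_⟩
    · rintro _ ⟨⟨i, rfl, v, hv, hi⟩, h2⟩
      refine ⟨i, rfl, _, ⟨v, hv, rfl⟩, ?_⟩
      rw [inv_one, map_one, one_mulVec]
      exact fun h3 => hi ((lv_pos h2 _).symm.trans h3)
    · rintro _ ⟨i, rfl, _, ⟨v, hv, rfl⟩, hi⟩
      rw [inv_one, map_one, one_mulVec] at hi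
      exact (lv_ne hi).1.ge
  have hZ0 : ∃ v ∈ Z, v ≠ 0 := by
    obtain ⟨_, i, -, v, hv, hi⟩ := convexHull_nonempty_iff.1 ⟨β, h1.1⟩
    exact ⟨v, hv, fun e => hi (by rw [e, mulVec_zero]; rfl)⟩
  obtain ⟨g₁, β₁, o₁, hd₁⟩ := hR.exists_opt hZ0
  refine ⟨h1, fun g' β' h' => (o₁.2 g' β' h').trans ?_⟩
  obtain ⟨b, b', l, hb, hb', e⟩ := bruhat g₁
  have h2 : ∀ s ∈ St c R Z b, bf β₁ β₁ ≤ bf (wL l β₁) s := by
    intro s hs
    obtain ⟨s', hs', rfl⟩ := (hR.mon_nL l).St_sub b hs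
    rw [wL_iso]
    refine hR.St_le (inv_mem (hb' β₁ hd₁)) g₁ o₁.1.2 s' ?_
    rwa [e, mul_inv_cancel_right]
  obtain ⟨m, hm, -, h3⟩ := exists_levi (inv_mem (hb β hβ))
  have o₂ : Opt bf (St c R X) (g * m⁻¹) β := ho.move bf_pd (St_finite _) (St_nonempty (exists_ne_of_opt ho) _)
    (hR.St_le (inv_mem hm) g ho.1.2)
  have h4 : ∀ s ∈ {s | s ∈ St c R X (g * m⁻¹) ∧ bf β s = bf β β}, bf β₁ β₁ ≤ bf (wL l β₁) s := by
    rintro _ ⟨⟨i, rfl, v, hv, hi⟩, h5⟩
    refine h2 _ ⟨i, rfl, _, ⟨v, hv, rfl⟩, fun h6 => hi ?_⟩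
    have h7 := hR.Gt_stab hm (sub_lv_mem (Opt_Ge ho hv))
    have h8 := MGt_mulVec (h3 I c R hR) (Lv_le_Ge (lv_mem (c := c) (β := β) (d := bf β β) (R g⁻¹ *ᵥ v)))
    rw [add_zero] at h8
    have h9 := sub_mem h7 h8
    have e2 : R (g * m⁻¹)⁻¹ *ᵥ v = R b⁻¹ *ᵥ lv c β (bf β β) (R g⁻¹ *ᵥ v) + (R m *ᵥ (R g⁻¹ *ᵥ v - lv c β (bf β β) (R g⁻¹ *ᵥ v)) -
        (R b⁻¹ - R m) *ᵥ lv c β (bf β β) (R g⁻¹ *ᵥ v)) := by
      rw [_root_.mul_inv_rev, inv_inv, mulVec_mul, mulVec_sub, sub_mulVec]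
      abel
    rw [e2, Pi.add_apply, h6, zero_add]
    by_contra h10
    exact (h9 i h10).ne' h5
  have h5 := le_of_hull h4 (mem_face o₂.1.2 o₂.1.1 rfl)
  rw [← wL_iso l β₁ β₁] at h5 ⊢
  exact bf_pd.le_of_le h5

end Lead

/-! ### the Lie algebra -/

theorem del_wt {z : chevE7.Idx → K} {i j : D1} (h : del K z i j ≠ 0) : ∃ a, z a ≠ 0 ∧ wv i = wv j + cv (ac a) := by
  rw [R2.PX.del_apply, Matrix.add_apply, Matrix.sum_apply, Matrix.sum_apply] at h
  by_cases h1 : ∑ a : Fin chevE7.rank, (z (Sum.inl a) • R2.PX.Hi K a) i j = 0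
  · rw [h1, zero_add] at h
    obtain ⟨s, -, hs⟩ := Finset.exists_ne_zero_of_sum_ne_zero h
    exact ⟨Sum.inr s, left_ne_zero_of_mul hs, NM_ne s.2 (right_ne_zero_of_mul hs)⟩
  · obtain ⟨a, -, ha⟩ := Finset.exists_ne_zero_of_sum_ne_zero h1
    have h2 : i = j := by
      by_contra h2
      exact right_ne_zero_of_mul ha (diagonal_apply_ne _ h2)
    exact ⟨Sum.inl a, left_ne_zero_of_mul ha, by rw [h2, ac_inl, cv_zero, add_zero]⟩

theorem del_supp {z : chevE7.Idx → K} {a : chevE7.Idx} (h : z a ≠ 0) :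
    ∃ i j, del K z i j ≠ 0 ∧ wv i = wv j + cv (ac a) := by
  have h1 : del K (pj ac (fun s => s = cv (ac a)) z) ≠ 0 := fun e => h (by
    rw [← pj_pos (c := ac) (P := fun s => s = cv (ac a)) rfl z, Mu.del_injective (e.trans (map_zero _).symm)]
    rfl)
  obtain ⟨i, hi⟩ := Function.ne_iff.1 h1
  obtain ⟨j, hj⟩ := Function.ne_iff.1 hi
  obtain ⟨b, hb, e⟩ := del_wt hj
  have h2 : cv (ac b) = cv (ac a) := by
    by_contra h2
    exact hb (pj_neg (P := fun s => s = cv (ac a)) h2 z)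
  refine ⟨i, j, fun h3 => hj ?_, h2 ▸ e⟩
  have h4 : del K (z - pj ac (fun s => s = cv (ac a)) z) i j = 0 := by
    by_contra h4
    obtain ⟨b', hb', e'⟩ := del_wt h4
    have h5 : cv (ac b') = cv (ac a) := (add_left_cancel (e'.symm.trans e)).trans h2
    exact hb' (by rw [Pi.sub_apply, pj_pos (P := fun s => s = cv (ac a)) h5, sub_self])
  rw [map_sub, Matrix.sub_apply, h3, zero_sub, neg_eq_zero] at h4
  exact h4

section
variable {β : E} {d d' : ℝ} {x y z : chevE7.Idx → K}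

theorem del_MGe : del K z ∈ MGe K wc β d ↔ z ∈ Ge K ac β d := by
  refine ⟨fun h a ha => ?_, fun h i j hij => ?_⟩
  · obtain ⟨i, j, h1, e⟩ := del_supp ha
    have h2 : bf β (wv j) + d ≤ bf β (wv i) := h i j h1
    rw [e, map_add] at h2
    linarith
  · obtain ⟨a, ha, e⟩ := del_wt hij
    show bf β (wv j) + d ≤ bf β (wv i)
    have h2 := h a ha
    rw [e, map_add]
    linarith

theorem del_MGt : del K z ∈ MGt K wc β d ↔ z ∈ Gt K ac β d := by
  refine ⟨fun h a ha => ?_, fun h i j hij => ?_⟩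
  · obtain ⟨i, j, h1, e⟩ := del_supp ha
    have h2 : bf β (wv j) + d < bf β (wv i) := h i j h1
    rw [e, map_add] at h2
    linarith
  · obtain ⟨a, ha, e⟩ := del_wt hij
    show bf β (wv j) + d < bf β (wv i)
    have h2 := h a ha
    rw [e, map_add]
    linarith

theorem vec_del_Lv (h : z ∈ Lv K ac β d) : Kf.vec (del K z) ∈ Lv K ec β d := fun x hx => by
  obtain ⟨a, ha, e⟩ := del_wt hx
  rw [bf_end]
  show bf β (wv x.1) - bf β (wv x.2) = d
  rw [e, map_add, h a ha, add_sub_cancel_left]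

theorem del_adM (h2 : (2 : K) ≠ 0) (g : Gh K) (z : chevE7.Idx → K) :
    del K (adM K g *ᵥ z) = rho K g * del K z * rho K g⁻¹ := by
  rw [R2.PX.del_equi h2, mul_assoc, ← map_mul, mul_inv_cancel, map_one, mul_one]

/-- the weights of a subset of the Lie algebra, seen in `End V` -/
theorem St_del (h2 : (2 : K) ≠ 0) (X : Set (chevE7.Idx → K)) :
    St ec (eR K) ((fun z => Kf.vec (del K z)) '' X) = St ac (adM K) X := by
  funext g
  ext s
  constructor
  · rintro ⟨i, rfl, _, ⟨z, hz, rfl⟩, hi⟩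
    rw [endo_mulVec, ← del_adM h2] at hi
    obtain ⟨a, ha, e⟩ := del_wt hi
    refine ⟨a, ?_, z, hz, ha⟩
    rw [cv_add, cv_neg]
    show wv i.1 + - wv i.2 = _
    rw [e, add_neg_cancel_comm]
  · rintro ⟨a, rfl, z, hz, ha⟩
    obtain ⟨i, j, h1, e⟩ := del_supp ha
    refine ⟨(i, j), ?_, _, ⟨z, hz, rfl⟩, by rw [endo_mulVec, ← del_adM h2]; exact h1⟩
    rw [cv_add, cv_neg]
    show _ = wv i + - wv j
    rw [e, add_neg_cancel_comm]

end

theorem del_br0 (x y : chevE7.Idx → K) : del K (exists_br x y).choose = del K x * del K y - del K y * del K x :=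
  (exists_br x y).choose_spec

variable (K) in
/-- **the bracket** -/
noncomputable def br : (chevE7.Idx → K) →ₗ[K] (chevE7.Idx → K) →ₗ[K] (chevE7.Idx → K) :=
  LinearMap.mk₂ K (fun x y => (exists_br x y).choose)
    (fun x x' y => Mu.del_injective (by
      rw [del_br0, map_add, map_add, del_br0, del_br0, add_mul, mul_add]
      abel))
    (fun c x y => Mu.del_injective (by
      rw [del_br0, map_smul, map_smul, del_br0, smul_mul_assoc, mul_smul_comm, smul_sub]))
    (fun x y y' => Mu.del_injective (by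
      rw [del_br0, map_add, map_add, del_br0, del_br0, add_mul, mul_add]
      abel))
    (fun c x y => Mu.del_injective (by
      rw [del_br0, map_smul, map_smul, del_br0, smul_mul_assoc, mul_smul_comm, smul_sub]))

theorem del_br (x y : chevE7.Idx → K) : del K (br K x y) = del K x * del K y - del K y * del K x := del_br0 x y

section
variable {β : E} {d d' : ℝ} {x y z : chevE7.Idx → K}

theorem br_eq_zero : br K x y = 0 ↔ Cm x y := by
  refine ⟨fun h => ?_, fun h => Mu.del_injective ?_⟩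
  · have h1 := del_br x y
    rw [h, map_zero] at h1
    exact sub_eq_zero.1 h1.symm
  · rw [del_br, map_zero]
    exact sub_eq_zero.2 h

theorem br_anti (x y : chevE7.Idx → K) : br K x y = - br K y x :=
  Mu.del_injective (by rw [map_neg, del_br, del_br, neg_sub])

theorem br_self (x : chevE7.Idx → K) : br K x x = 0 := br_eq_zero.2 rfl

theorem br_jacobi (x y z : chevE7.Idx → K) : br K x (br K y z) = br K (br K x y) z + br K y (br K x z) :=
  Mu.del_injective (by
    simp only [map_add, del_br]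
    noncomm_ring)

theorem adM_br (h2 : (2 : K) ≠ 0) (g : Gh K) (x y : chevE7.Idx → K) :
    adM K g *ᵥ br K x y = br K (adM K g *ᵥ x) (adM K g *ᵥ y) := Mu.del_injective (by
  have h1 : ∀ A : Matrix D1 D1 K, rho K g⁻¹ * (rho K g * A) = A := fun A => by
    rw [← mul_assoc, ← map_mul, inv_mul_cancel, map_one, one_mul]
  rw [del_br, del_adM h2, del_adM h2, del_adM h2, del_br, mul_sub, sub_mul]
  simp only [mul_assoc, h1])

theorem br_Ge (hx : x ∈ Ge K ac β d) (hy : y ∈ Ge K ac β d') : br K x y ∈ Ge K ac β (d + d') := by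
  rw [← del_MGe] at hx hy ⊢
  rw [del_br]
  exact sub_mem (MGe_mul hx hy) (add_comm d d' ▸ MGe_mul hy hx)

theorem br_Gt (hx : x ∈ Gt K ac β d) (hy : y ∈ Ge K ac β d') : br K x y ∈ Gt K ac β (d + d') := by
  rw [← del_MGe] at hy
  rw [← del_MGt] at hx ⊢
  rw [del_br]
  exact sub_mem (MGt_mul hx hy) (add_comm d d' ▸ mul_MGt hy hx)

theorem br_Gt' (hx : x ∈ Ge K ac β d) (hy : y ∈ Gt K ac β d') : br K x y ∈ Gt K ac β (d + d') := by
  rw [br_anti, add_comm]
  exact neg_mem (br_Gt hy hx)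

theorem br_Lv (hx : x ∈ Lv K ac β d) (hy : y ∈ Lv K ac β d') : br K x y ∈ Lv K ac β (d + d') :=
  Lv_of_Ge (br_Ge (Lv_le_Ge hx) (Lv_le_Ge hy))
    (by rw [neg_add]; exact br_Ge (Lv_le_Ge (mem_Lv_neg.2 hx)) (Lv_le_Ge (mem_Lv_neg.2 hy)))

theorem lv_br (hx : x ∈ Ge K ac β d) (hy : y ∈ Ge K ac β d') :
    lv ac β (d + d') (br K x y) = br K (lv ac β d x) (lv ac β d' y) := by
  rw [← lv_of_Lv (br_Lv (lv_mem x) (lv_mem y))]
  refine lv_eq_of_sub ?_
  have e : br K x y - br K (lv ac β d x) (lv ac β d' y) =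
      br K (x - lv ac β d x) y + br K (lv ac β d x) (y - lv ac β d' y) := by
    rw [map_sub, map_sub, LinearMap.sub_apply]
    abel
  rw [e]
  exact add_mem (br_Gt (sub_lv_mem hx) hy) (br_Gt' (Lv_le_Ge (lv_mem x)) (sub_lv_mem hy))

/-- the leading term of the adjoint action -/
theorem adM_lead (h2 : (2 : K) ≠ 0) {g : Gh K} (hg : g ∈ Pl K β) (hd : 0 < d) (hz : z ∈ Ge K ac β d)
    (h : rho K g - 1 - del K z ∈ MGt K wc β d) (hy : y ∈ Ge K ac β d') :
    adM K g *ᵥ y - y - br K z y ∈ Gt K ac β (d' + d) := by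
  rw [← del_MGe] at hz hy
  have h1 : rho K g - 1 ∈ MGe K wc β d := by
    have h3 := add_mem (MGt_le_MGe h) hz
    rwa [sub_add_cancel] at h3
  have e : del K (adM K g *ᵥ y - y - br K z y) = ((rho K g - 1 - del K z) * del K y - del K y * (rho K g - 1 - del K z) -
      (del K z * del K y - del K y * del K z) * (rho K g - 1)) * rho K g⁻¹ := by
    have h3 : rho K g * rho K g⁻¹ = 1 := by rw [← map_mul, mul_inv_cancel, map_one]
    rw [map_sub, map_sub, del_adM h2, del_br]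
    calc _ = rho K g * del K y * rho K g⁻¹ - del K y * (rho K g * rho K g⁻¹) -
          (del K z * del K y - del K y * del K z) * (rho K g * rho K g⁻¹) := by rw [h3, mul_one, mul_one]
      _ = _ := by noncomm_ring
  rw [← del_MGt, e]
  have h4 := MGe_mul (sub_mem (MGe_mul hz hy) (add_comm d d' ▸ MGe_mul hy hz)) h1
  have h5 := MGt_mul (sub_mem (sub_mem (add_comm d d' ▸ MGt_mul h hy) (mul_MGt hy h))
    (MGe_le_MGt (by linarith) h4)) (Pl_MGe wrep_V (inv_mem hg))
  rwa [add_zero] at h5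

/-- the labels of an optimal cocharacter of a subset of the Lie algebra -/
theorem label_le {X : Set (chevE7.Idx → K)} {g : Gh K} (ho : Opt bf (St ac (adM K) X) g β) (hβ : Dom β) (i : Fin 7) :
    β i ≤ bf β β := by
  by_contra hc
  have hlt := not_le.1 hc
  have h0 : β ≠ 0 := by
    rintro rfl
    simp at hlt
  have hn := bf_pd.pos β h0
  have h1 : ∀ s ∈ {s | s ∈ St ac (adM K) X g ∧ bf β s = bf β β}, 0 ≤ bf (-Pi.single i 1) s := by
    rintro _ ⟨⟨a, rfl, -⟩, h2⟩
    rcases a with a | r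
    · rw [ac_inl, cv_zero, map_zero]
    · have hr : r.val < 126 := r.2
      have h3 : bf β (rv r) = bf β β := h2
      show 0 ≤ bf (-Pi.single i 1) (rv r)
      have h63 : 63 ≤ r.val := by
        by_contra h63
        have := hβ.neg (not_le.1 h63)
        linarith
      have h4 := (chk_pos r hr).2.1 h63
      have h5 : rt chevE7 r i = 0 := by
        by_contra h5
        have h6 : (1 : ℝ) ≤ (rt chevE7 r i : ℝ) := by
          have := h4 i i.2
          exact_mod_cast (show (1 : ℤ) ≤ rt chevE7 r i by omega)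
        rw [bf_rv _ hr] at h3
        have h7 := Finset.single_le_sum (f := fun j : Fin 7 => β j * (rt chevE7 r j : ℝ))
          (fun j _ => mul_nonneg (hβ j) (by exact_mod_cast h4 j j.2)) (Finset.mem_univ i)
        have h8 := mul_le_mul_of_nonneg_left h6 (hβ i)
        linarith
      rw [bf_rv _ hr, Finset.sum_eq_single i, h5, Int.cast_zero, mul_zero]
      · intro j _ hj
        rw [Pi.neg_apply, Pi.single_eq_of_ne hj, neg_zero, zero_mul]
      · intro h
        exact absurd (Finset.mem_univ i) h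
  have h2 := le_of_hull h1 (mem_face ho.1.2 ho.1.1 rfl)
  have h3 : ∀ i < 7, ∀ j < 7, 1 ≤ Kf.iC i j := by decide
  rw [map_neg, LinearMap.neg_apply, bf_def, Finset.sum_eq_single i, Pi.single_eq_same, one_mul] at h2
  · have h4 := Finset.single_le_sum (f := fun j : Fin 7 => ((Kf.iC i j : ℤ) : ℝ) / 2 * β j)
      (fun j _ => mul_nonneg (div_nonneg (by exact_mod_cast (zero_le_one.trans (h3 i i.2 j j.2))) zero_le_two) (hβ j))
      (Finset.mem_univ i)
    have h5 : (1 : ℝ) ≤ ((Kf.iC i i : ℤ) : ℝ) := by exact_mod_cast h3 i i.2 i i.2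
    nlinarith
  · intro j _ hj
    rw [Pi.single_eq_of_ne hj, zero_mul]
  · intro h
    exact absurd (Finset.mem_univ i) h

end

end Cfsg.Agent.E7P.Br
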